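import Mathlib
import Cfsg.Agent.Base
import Cfsg.Agent.Lib.FGS.ClassSize
import Cfsg.Agent.Lib.FGS.FrobCount

/-!
# Groups with the class sizes of `PSL₂(q)`: the central quotient
-/

set_option autoImplicit false
set_option linter.unusedSectionVars false

namespace H26.CL

open Subgroup H80 H35

variable {G : Type*} [Group G] [Finite G]

theorem eq_of_le_of_index {H K : Subgroup G} (h : H ≤ K) (e : H.index = K.index) : H = K :=
  eq_of_le_of_card_ge h (Nat.eq_of_mul_eq_mul_right (Nat.pos_of_ne_zero index_ne_zero_of_finite)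
    (by rw [card_mul_index, ← e, card_mul_index] : Nat.card K * K.index = Nat.card H * K.index)).le

theorem exists_pElt {p : ℕ} (hp : p.Prime) {Z M : Subgroup G} (h : p ∣ Z.relIndex M) :
    ∃ u ∈ M, u ∉ Z ∧ IsPElt p u := by
  haveI := Fact.mk hp
  by_contra hc
  obtain ⟨P⟩ : Nonempty (Sylow p M) := inferInstance
  exact not_dvd_index_of_sylow_le P (fun x hx => by_contra fun e =>
    hc ⟨x, x.2, e, (isPElt_coe x).2 (isPElt_of_mem P.isPGroup' hx)⟩) h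

theorem cop_of_pElt {p q : ℕ} (hp : p.Prime) (hq : q.Prime) (hne : p ≠ q) {x y : G}
    (hx : IsPElt p x) (hy : IsPElt q y) : (orderOf x).Coprime (orderOf y) := by
  obtain ⟨k, e⟩ := hx
  obtain ⟨l, e'⟩ := hy
  rw [e, e']
  exact Nat.Coprime.pow _ _ ((Nat.coprime_primes hp hq).2 hne)

/-- The centraliser of `x` is minimal, and maximal among proper centralisers. -/
structure MM (x : G) : Prop where
  nc : x ∉ center G
  max : ∀ y, y ∉ center G → Cx⟦x⟧ ≤ Cx⟦y⟧ → Cx⟦x⟧ = Cx⟦y⟧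
  min : ∀ y, Cx⟦y⟧ ≤ Cx⟦x⟧ → Cx⟦y⟧ = Cx⟦x⟧

theorem MM.le {x y w : G} (h : MM x) (e : Cx⟦x⟧ = Cx⟦y⟧) (hw : w ∈ Cx⟦x⟧)
    (hc : (orderOf y).Coprime (orderOf w)) : Cx⟦x⟧ ≤ Cx⟦w⟧ := by
  have e1 := Cx_mul_of_coprime (mem_Cx_iff_commute.1 (e ▸ hw)) hc
  exact (h.min (y * w) (e1 ▸ e ▸ inf_le_left)).ge.trans (e1 ▸ inf_le_right)

theorem MM.comm {x : G} (h : MM x) {r s : ℕ} (hr : r.Prime) (hs : s.Prime) (hne : r ≠ s)
    (dr : r ∣ (center G).relIndex Cx⟦x⟧) (ds : s ∣ (center G).relIndex Cx⟦x⟧) {w : G}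
    (hw : w ∈ Cx⟦x⟧) : Cx⟦x⟧ ≤ Cx⟦w⟧ := by
  obtain ⟨l, y, hl, hy, yz, y1⟩ : ∃ (l : ℕ) (y : G), l.Prime ∧ IsPElt l y ∧ y ∈ zpowers x ∧
      y ∉ center G := by
    by_contra hc
    push Not at hc
    exact h.nc (mem_of_forall_isPElt_zpowers fun l y hl _ hy yz => hc l y hl hy yz)
  have e1 := h.max y y1 (Cx_le_of_mem_zpowers yz)
  obtain ⟨k, u, hk, kl, hu, e2⟩ : ∃ (k : ℕ) (u : G), k.Prime ∧ l ≠ k ∧ IsPElt k u ∧
      Cx⟦x⟧ = Cx⟦u⟧ := by
    by_cases lr : l = r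
    · obtain ⟨u, u1, u2, u3⟩ := exists_pElt hs ds
      exact ⟨s, u, hs, lr ▸ hne, u3, h.max u u2 (h.le e1 u1 (cop_of_pElt hl hs (lr ▸ hne) hy u3))⟩
    · obtain ⟨u, u1, u2, u3⟩ := exists_pElt hr dr
      exact ⟨r, u, hr, lr, u3, h.max u u2 (h.le e1 u1 (cop_of_pElt hl hr lr hy u3))⟩
  refine le_Cx_iff.2 (mem_of_forall_isPElt_zpowers fun j v hj _ hv vz => le_Cx_iff.1 ?_)
  have vx : v ∈ Cx⟦x⟧ := zpowers_le.2 hw vz
  by_cases lj : l = j
  · exact h.le e2 vx (cop_of_pElt hk hj (fun e => kl (lj.trans e.symm)) hu hv)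
  · exact h.le e1 vx (cop_of_pElt hl hj lj hy hv)

theorem MM.cs_eq {x : G} (h : MM x) {r s : ℕ} (hr : r.Prime) (hs : s.Prime) (hne : r ≠ s)
    (dr : r ∣ (center G).relIndex Cx⟦x⟧) (ds : s ∣ (center G).relIndex Cx⟦x⟧) {z : G}
    (hz : z ∉ center G) (rz : ¬ r ∣ cs⟦z⟧) : cs⟦x⟧ = cs⟦z⟧ := by
  haveI := Fact.mk hr
  obtain ⟨u, u1, u2, u3⟩ := exists_pElt hr dr
  have e := h.max u u2 (h.comm hr hs hne dr ds u1)
  obtain ⟨R, hR⟩ := u3.exists_sylow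
  obtain ⟨g, hg⟩ := exists_conj_mem_centralizer_sylow rz R
  have h1 : g * z * g⁻¹ ∈ Cx⟦x⟧ := e ▸ mem_Cx'.2 (mem_centralizer_iff.1 hg u hR)
  rw [h.max _ (fun e => hz (cs_eq_one_iff.1 ((cs_conj g z).symm.trans (cs_eq_one_iff.2 e))))
    (h.comm hr hs hne dr ds h1), cs_conj]

/-- The class sizes are `1, m w, q w, q m` and possibly `2 q m`. -/
structure S3 (G : Type*) [Group G] (q m w : ℕ) : Prop where
  qm : q.Coprime m
  qw : q.Coprime w
  mw : m.Coprime w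
  q2 : 2 < q
  m2 : 2 < m
  w2 : 2 < w
  all : ∀ x : G, cs⟦x⟧ = 1 ∨ cs⟦x⟧ = m * w ∨ cs⟦x⟧ = q * w ∨ cs⟦x⟧ = q * m ∨
    (2 ∣ w ∧ cs⟦x⟧ = 2 * (q * m))
  exa : ∃ x : G, cs⟦x⟧ = m * w
  exb : ∃ x : G, cs⟦x⟧ = q * w
  exd : ∃ x : G, cs⟦x⟧ = q * m

theorem ndvd {a b : ℕ} (h : a.Coprime b) (ha : 2 < a) : ¬ a ∣ b := fun e => by
  have := h.eq_one_of_dvd e
  omega

theorem ndvd2 {a b : ℕ} (h : a.Coprime b) (ha : 2 < a) : ¬ a ∣ 2 * b := fun e => by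
  have := Nat.le_of_dvd two_pos (h.dvd_of_dvd_mul_right e)
  omega

namespace S3

variable {q m w : ℕ}

theorem symm (h : S3 G q m w) : S3 G m q w :=
  ⟨h.qm.symm, h.mw, h.qw, h.m2, h.q2, h.w2, fun x => by
    have := h.all x
    rw [mul_comm m q]
    tauto, h.exb, h.exa, mul_comm q m ▸ h.exd⟩

theorem nc {x : G} {a b : ℕ} (ha : 2 < a) (e : cs⟦x⟧ = a * b) : x ∉ center G := fun c => by
  rw [cs_eq_one_iff.2 c] at e
  have := Nat.eq_one_of_mul_eq_one_right e.symm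
  omega

theorem mm (h : S3 G q m w) {x : G} (e : cs⟦x⟧ = m * w) : MM x := by
  refine ⟨nc h.m2 e, fun y hy l => eq_of_le_of_index l ?_, fun y l => eq_of_le_of_index l ?_⟩
  · have d := index_dvd_of_le l
    have n := ndvd (h.qm.mul_right h.qw) h.q2
    rw [e] at d ⊢
    rcases h.all y with c | c | c | c | ⟨-, c⟩
    · exact absurd (cs_eq_one_iff.1 c) hy
    · exact c.symm
    · exact absurd ((c ▸ dvd_mul_right q w).trans d) n
    · exact absurd ((c ▸ dvd_mul_right q m).trans d) n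
    · exact absurd ((c ▸ (dvd_mul_right q m).mul_left 2).trans d) n
  · have d := index_dvd_of_le l
    have n := h.qw.symm.mul_right h.mw.symm
    rw [e] at d ⊢
    rcases h.all y with c | c | c | c | ⟨-, c⟩ <;> rw [c] at d
    · have := Nat.eq_one_of_mul_eq_one_right (Nat.dvd_one.1 d)
      have := h.m2
      omega
    · exact c
    · exact absurd ((dvd_mul_right m w).trans d) (ndvd (h.qm.symm.mul_right h.mw) h.m2)
    · exact absurd ((dvd_mul_left w m).trans d) (ndvd n h.w2)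
    · exact absurd ((dvd_mul_left w m).trans d) (ndvd2 n h.w2)

theorem aux (h : S3 G q m w) {k r : ℕ} (hk : (center G).index = q * m * w * k) (hr : r.Prime)
    (rk : r ∣ k) (rq : ¬ r ∣ q) {z : G} (hz : z ∉ center G) (rz : ¬ r ∣ cs⟦z⟧) :
    m * w = cs⟦z⟧ := by
  obtain ⟨x, e⟩ := h.exa
  obtain ⟨s, hs, sq⟩ := Nat.exists_prime_and_dvd (n := q) (by have := h.q2; omega)
  have e1 : (center G).relIndex Cx⟦x⟧ = q * k := Nat.eq_of_mul_eq_mul_right (cs_pos x) (by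
    rw [relIndex_mul_index (center_le_Cx x), hk, e]; ring)
  exact e ▸ (h.mm e).cs_eq hr hs (fun c => rq (c ▸ sq)) (e1 ▸ rk.mul_left q) (e1 ▸ sq.mul_right k)
    hz rz

theorem index (h : S3 G q m w) : (center G).index = q * m * w := by
  obtain ⟨x, ex⟩ := h.exa
  obtain ⟨y, ey⟩ := h.exb
  obtain ⟨z, ez⟩ := h.exd
  obtain ⟨k, hk⟩ : q * m * w ∣ (center G).index :=
    (h.qw.mul_left h.mw).mul_dvd_of_dvd_of_dvd (ez ▸ cs_dvd_index_center z)
      ((dvd_mul_left w m).trans (ex ▸ cs_dvd_index_center x))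
  by_contra hne
  obtain ⟨r, hr, rk⟩ := Nat.exists_prime_and_dvd (n := k) (fun e => hne (by rw [hk, e, mul_one]))
  haveI := Fact.mk hr
  have np : ∀ {a b : ℕ}, a.Coprime b → r ∣ a → ¬ r ∣ b := fun c d e =>
    hr.one_lt.ne' (Nat.eq_one_of_dvd_coprimes c d e)
  have w0 : 0 < w := by have := h.w2; omega
  have hqm : m ≠ q := fun e => ndvd h.qm h.q2 e.symm.dvd
  by_cases rq : r ∣ q
  · exact hqm (Nat.eq_of_mul_eq_mul_right w0 (ex.symm.trans (h.symm.aux (by rw [hk]; ring) hr rk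
      (np h.qm rq) (nc h.m2 ex) (ex ▸ np (h.qm.mul_right h.qw) rq)).symm))
  by_cases rm : r ∣ m
  · exact hqm (Nat.eq_of_mul_eq_mul_right w0 ((h.aux hk hr rk rq (nc h.q2 ey)
      (ey ▸ np (h.qm.symm.mul_right h.mw) rm)).trans ey))
  have rqm : ¬ r ∣ q * m := fun e => ((Nat.Prime.dvd_mul hr).1 e).elim rq rm
  have := (h.aux hk hr rk rq (nc h.q2 ez) (ez ▸ rqm)).trans ez
  exact ndvd (h.qw.symm.mul_right h.mw.symm) h.w2 (this ▸ dvd_mul_left w m)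

end S3

/-- The centreless version, with element orders. -/
structure S4 (H : Type*) [Group H] (q m w : ℕ) : Prop where
  card : Nat.card H = q * m * w
  all : ∀ x : H, x ≠ 1 → (orderOf x ∣ q ∧ cs⟦x⟧ = m * w) ∨ (orderOf x ∣ m ∧ cs⟦x⟧ = q * w) ∨
    (orderOf x ∣ w ∧ (cs⟦x⟧ = q * m ∨ cs⟦x⟧ = 2 * (q * m)))

theorem dvd_cs {a b : ℕ} (hc : Nat.card G = a * b) (ab : a.Coprime b)
    (h : ∀ x : G, orderOf x ∣ a ∨ orderOf x ∣ b) {x : G} (x1 : x ≠ 1) (xa : orderOf x ∣ a) :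
    b ∣ cs⟦x⟧ := by
  refine Nat.Coprime.dvd_of_dvd_mul_left (Nat.coprime_of_dvd fun s hs sb sc => ?_)
    ((card_Cx_mul_cs x).symm ▸ hc ▸ dvd_mul_left b a)
  haveI := Fact.mk hs
  obtain ⟨⟨y, hy⟩, yo⟩ := exists_prime_orderOf_dvd_card' s sc
  rw [orderOf_mk] at yo
  have c : (orderOf x).Coprime (orderOf y) := Nat.Coprime.coprime_dvd_left xa
    (Nat.Coprime.coprime_dvd_right (yo ▸ sb) ab)
  have e := (mem_Cx_iff_commute.1 hy).orderOf_mul_eq_mul_orderOf_of_coprime c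
  rcases h (x * y) with d | d <;> rw [e] at d
  · exact hs.one_lt.ne' (Nat.eq_one_of_dvd_coprimes ab (yo ▸ (dvd_mul_left _ _).trans d) sb)
  · exact x1 (orderOf_eq_one_iff.1 (Nat.eq_one_of_dvd_coprimes ab xa ((dvd_mul_right _ _).trans d)))

theorem S3.ord {q m w : ℕ} (h : S3 G q m w) (x : G) :
    orderOf (x : G ⧸ center G) * cs⟦x⟧ ∣ q * m * w := by
  rw [← h.index, ← relIndex_mul_index (center_le_Cx x)]
  refine Nat.mul_dvd_mul_right (orderOf_dvd_of_pow_eq_one ?_) _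
  rw [← QuotientGroup.mk_pow, QuotientGroup.eq_one_iff]
  exact pow_index_mem (H := (center G).subgroupOf Cx⟦x⟧) ⟨x, self_mem_Cx x⟩

theorem S3.quot {q m w : ℕ} (h : S3 G q m w) (x : G) (hx : x ∉ center G) :
    (orderOf (x : G ⧸ center G) ∣ q ∧ cs⟦x⟧ = m * w ∧ cs⟦(x : G ⧸ center G)⟧ = m * w) ∨
    (orderOf (x : G ⧸ center G) ∣ m ∧ cs⟦x⟧ = q * w ∧ cs⟦(x : G ⧸ center G)⟧ = q * w) ∨
    (orderOf (x : G ⧸ center G) ∣ w ∧ ((cs⟦x⟧ = q * m ∧ cs⟦(x : G ⧸ center G)⟧ = q * m) ∨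
      (2 ∣ w ∧ cs⟦x⟧ = 2 * (q * m) ∧ (cs⟦(x : G ⧸ center G)⟧ = q * m ∨
        cs⟦(x : G ⧸ center G)⟧ = 2 * (q * m))))) := by
  have q0 : 0 < q := by have := h.q2; omega
  have m0 : 0 < m := by have := h.m2; omega
  have w0 : 0 < w := by have := h.w2; omega
  have key : ∀ x : G, x ∉ center G → (orderOf (x : G ⧸ center G) ∣ q ∧ cs⟦x⟧ = m * w) ∨
      (orderOf (x : G ⧸ center G) ∣ m ∧ cs⟦x⟧ = q * w) ∨ (orderOf (x : G ⧸ center G) ∣ w ∧
        (cs⟦x⟧ = q * m ∨ (2 ∣ w ∧ cs⟦x⟧ = 2 * (q * m)))) := fun x hx => by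
    have d := h.ord x
    rcases h.all x with c | c | c | c | ⟨c2, c⟩ <;> rw [c] at d
    · exact absurd (cs_eq_one_iff.1 c) hx
    · exact Or.inl ⟨Nat.dvd_of_mul_dvd_mul_right (Nat.mul_pos m0 w0) (mul_assoc q m w ▸ d), c⟩
    · exact Or.inr (Or.inl ⟨Nat.dvd_of_mul_dvd_mul_right (Nat.mul_pos q0 w0)
        ((by ring : q * m * w = m * (q * w)) ▸ d), c⟩)
    · exact Or.inr (Or.inr ⟨Nat.dvd_of_mul_dvd_mul_right (Nat.mul_pos q0 m0)
        (mul_comm (q * m) w ▸ d), Or.inl c⟩)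
    · exact Or.inr (Or.inr ⟨Nat.dvd_of_mul_dvd_mul_right (Nat.mul_pos q0 m0)
        (mul_comm (q * m) w ▸ (Nat.mul_dvd_mul_left _ (dvd_mul_left _ 2)).trans d), Or.inr ⟨c2, c⟩⟩)
  have ho : ∀ y : G ⧸ center G, orderOf y ∣ q ∨ orderOf y ∣ m ∨ orderOf y ∣ w := fun y => by
    obtain ⟨g, rfl⟩ := QuotientGroup.mk_surjective y
    by_cases hg : g ∈ center G
    · rw [(QuotientGroup.eq_one_iff g).2 hg, orderOf_one]; exact Or.inl (one_dvd _)
    · have := key g hg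
      tauto
  have hc : Nat.card (G ⧸ center G) = q * m * w := h.index
  have x1 : (x : G ⧸ center G) ≠ 1 := fun e => hx ((QuotientGroup.eq_one_iff x).1 e)
  have d := cs_mk_dvd (center G) x
  rcases key x hx with ⟨o, c⟩ | ⟨o, c⟩ | ⟨o, c⟩
  · refine Or.inl ⟨o, c, Nat.dvd_antisymm (c ▸ d) (dvd_cs (hc.trans (mul_assoc _ _ _))
      (h.qm.mul_right h.qw) (fun y => ?_) x1 o)⟩
    rcases ho y with e | e | e
    exacts [Or.inl e, Or.inr (e.mul_right _), Or.inr (e.mul_left _)]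
  · refine Or.inr (Or.inl ⟨o, c, Nat.dvd_antisymm (c ▸ d) (dvd_cs (hc.trans (by ring))
      (h.qm.symm.mul_right h.mw) (fun y => ?_) x1 o)⟩)
    rcases ho y with e | e | e
    exacts [Or.inr (e.mul_right _), Or.inl e, Or.inr (e.mul_left _)]
  · have d2 : q * m ∣ cs⟦(x : G ⧸ center G)⟧ := dvd_cs (hc.trans (mul_comm _ _))
      (h.qw.symm.mul_right h.mw.symm) (fun y => by
        rcases ho y with e | e | e
        exacts [Or.inr (e.mul_right _), Or.inr (e.mul_left _), Or.inl e]) x1 o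
    refine Or.inr (Or.inr ⟨o, ?_⟩)
    rcases c with c | ⟨c2, c⟩
    · exact Or.inl ⟨c, Nat.dvd_antisymm (c ▸ d) d2⟩
    · refine Or.inr ⟨c2, c, ?_⟩
      obtain ⟨j, hj⟩ := d2
      rw [hj, c, mul_comm 2] at d
      rcases (Nat.dvd_prime Nat.prime_two).1
        (Nat.dvd_of_mul_dvd_mul_left (Nat.mul_pos q0 m0) d) with rfl | rfl
      · exact Or.inl (hj.trans (mul_one _))
      · exact Or.inr (hj.trans (mul_comm _ _))

theorem S3.s4 {q m w : ℕ} (h : S3 G q m w) : S4 (G ⧸ center G) q m w :=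
  ⟨h.index, fun y y1 => by
    obtain ⟨g, rfl⟩ := QuotientGroup.mk_surjective y
    have := h.quot g fun e => y1 ((QuotientGroup.eq_one_iff g).2 e)
    tauto⟩

theorem dvd_ncard_of_cs {S : Set G} {d : ℕ} (hS : ∀ x ∈ S, ∀ y, IsConj x y → y ∈ S)
    (hd : ∀ x ∈ S, d ∣ cs⟦x⟧) : d ∣ S.ncard :=
  H79.dvd_ncard_of_blocks S S.toFinite d (fun x => {y | IsConj x y}) (fun x _ => IsConj.refl x)
    (fun x hx y hy => hS x hx y hy)
    (fun _ _ _ hy => Set.ext fun _ => ⟨fun e => hy.trans e, fun e => (IsConj.symm hy).trans e⟩)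
    fun x hx => ncard_isConj x ▸ hd x hx

end H26.CL
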