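import Mathlib
import Cfsg.Agent.Base
import Cfsg.Agent.Lib.ClsL2.A
import Cfsg.Agent.Lib.Inv73.Basic
import Cfsg.Agent.Lib.GL.Simple
import Cfsg.Agent.S0727
import Cfsg.Agent.S0731

/-!
# Groups with the class sizes of `PSL₂(q)`: the Zassenhaus action on the Sylow `p`-subgroups
-/

set_option autoImplicit false
set_option linter.unusedSectionVars false

namespace H26.CL

open Subgroup H80 H35 MulAction
open scoped MatrixGroups Pointwise

variable {H : Type*} [Group H] [Finite H]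

/-- The numerical data. -/
structure S5 (H : Type*) [Group H] (p f q m w e : ℕ) : Prop extends S4 H q m w where
  qp : q = p ^ f
  qm : q.Coprime m
  qw : q.Coprime w
  mw : m.Coprime w
  q4 : 4 ≤ q
  em : e * (m * w) + 1 = q ^ 2
  e2 : e ≤ 2
  m2 : 2 < m
  w2 : 2 < w

/-- The non-identity elements of order dividing `q`. -/
def XX (H : Type*) [Group H] (q : ℕ) : Set H := {x | x ≠ 1 ∧ orderOf x ∣ q}

theorem xconj {q : ℕ} {x y : H} (h : x ∈ XX H q) (e : IsConj x y) : y ∈ XX H q := by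
  obtain ⟨g, rfl⟩ := isConj_iff.1 e
  exact ⟨by simpa using h.1, by rw [H9.orderOf_conj]; exact h.2⟩

theorem card_ne {α : Type*} [Finite α] (a : α) : Nat.card {x // x ≠ a} = Nat.card α - 1 := by
  classical
  haveI := Fintype.ofFinite α
  rw [Nat.card_eq_fintype_card, Nat.card_eq_fintype_card, Fintype.card_subtype_compl,
    Fintype.card_subtype_eq]

namespace S5

variable {p f q m w e : ℕ} [hp : Fact p.Prime] (h : S5 H p f q m w e)
include h

theorem cs_X {x : H} (hx : x ∈ XX H q) : cs⟦x⟧ = m * w := by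
  rcases h.all x hx.1 with ⟨-, c⟩ | ⟨o, -⟩ | ⟨o, -⟩
  · exact c
  · exact absurd (orderOf_eq_one_iff.1 (Nat.eq_one_of_dvd_coprimes h.qm hx.2 o)) hx.1
  · exact absurd (orderOf_eq_one_iff.1 (Nat.eq_one_of_dvd_coprimes h.qw hx.2 o)) hx.1

theorem mw0 : 0 < m * w := Nat.mul_pos (by have := h.m2; omega) (by have := h.w2; omega)

theorem card_C {x : H} (hx : x ∈ XX H q) : Nat.card Cx⟦x⟧ = q :=
  Nat.eq_of_mul_eq_mul_right h.mw0 (by rw [← h.cs_X hx, card_Cx_mul_cs, h.card, h.cs_X hx, mul_assoc])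

theorem ndvd : ¬ p ∣ m * w := fun d => hp.out.one_lt.ne' (Nat.eq_one_of_dvd_coprimes
  (h.qm.mul_right h.qw) (h.qp ▸ dvd_pow_self p fun e => by
    have := h.q4; rw [h.qp, e, pow_zero] at this; omega) d)

theorem exists_syl {x : H} (hx : x ∈ XX H q) : ∃ P : Sylow p H, (P : Subgroup H) = Cx⟦x⟧ :=
  ⟨(IsPGroup.of_card ((h.card_C hx).trans h.qp)).toSylow (h.cs_X hx ▸ h.ndvd), rfl⟩

theorem card_syl (P : Sylow p H) : Nat.card P = q := by
  rw [P.card_eq_multiplicity, h.card, mul_assoc, h.qp, Nat.factorization_mul (pow_ne_zero _ hp.out.ne_zero)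
    h.mw0.ne', hp.out.factorization_pow, Finsupp.add_apply, Finsupp.single_eq_same,
    Nat.factorization_eq_zero_of_not_dvd h.ndvd, add_zero]

theorem mem_X {K : Subgroup H} (hK : Nat.card K = q) {x : H} (hx : x ∈ K) (x1 : x ≠ 1) :
    x ∈ XX H q := ⟨x1, hK ▸ K.orderOf_dvd_natCard hx⟩

theorem card_X : (XX H q).ncard + 1 = q ^ 2 := by
  obtain ⟨j, hj⟩ : m * w ∣ (XX H q).ncard :=
    dvd_ncard_of_cs (fun _ hx _ e => xconj hx e) fun x hx => (h.cs_X hx).symm.dvd
  have n1 : (1 : H) ∉ XX H q := fun e => e.1 rfl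
  obtain ⟨i, hi⟩ : q ∣ (insert 1 (XX H q))ᶜ.ncard :=
    dvd_ncard_of_cs (fun x hx y e hy => hx (by
      rcases hy with rfl | hy
      · exact Or.inl (isConj_one_left.1 e)
      · exact Or.inr (xconj hy e.symm))) fun x hx => by
      rcases h.all x (fun e => hx (Or.inl e)) with ⟨o, -⟩ | ⟨-, c⟩ | ⟨-, c | c⟩
      · exact absurd (Or.inr ⟨fun e => hx (Or.inl e), o⟩) hx
      · exact c ▸ dvd_mul_right _ _
      · exact c ▸ dvd_mul_right _ _
      · exact c ▸ (dvd_mul_right _ _).mul_left _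
  have e1 := Set.ncard_add_ncard_compl (insert 1 (XX H q))
  rw [Set.ncard_insert_of_notMem n1, hi, hj, h.card] at e1
  have e2 := h.em
  have jq : j < q := lt_of_mul_lt_mul_left (a := m * w) (by nlinarith) (Nat.zero_le _)
  have : j ≡ e [MOD q] := by
    refine Nat.ModEq.cancel_left_of_coprime (c := m * w) (h.qm.mul_right h.qw)
      (Nat.ModEq.add_right_cancel' 1 ?_)
    rw [mul_comm _ e, e2]
    refine ((Nat.modEq_zero_iff_dvd).2 ?_).trans ((Nat.modEq_zero_iff_dvd).2 (dvd_pow_self q two_ne_zero)).symm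
    exact (Nat.dvd_add_left (dvd_mul_right q i)).1 (e1 ▸ mul_assoc q m w ▸ dvd_mul_right _ _)
  have := Nat.ModEq.eq_of_lt_of_lt this jq (by have := h.e2; have := h.q4; omega)
  rw [hj, this, mul_comm, e2]

theorem ab_of_comm {x : H} (hx : x ∈ XX H q) (hc : ∀ a ∈ Cx⟦x⟧, ∀ b ∈ Cx⟦x⟧, Commute a b)
    (P : Sylow p H) {y : H} (hy : y ∈ (P : Subgroup H)) (y1 : y ≠ 1) : (P : Subgroup H) = Cx⟦y⟧ := by
  obtain ⟨Q, hQ⟩ := h.exists_syl hx
  obtain ⟨g, rfl⟩ := exists_smul_eq H Q P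
  refine eq_of_le_of_card_ge (fun z hz => mem_Cx_iff_commute.2 ?_)
    ((h.card_C (h.mem_X (h.card_syl _) hy y1)).trans (h.card_syl _).symm).le
  rw [Sylow.coe_subgroup_smul, mem_pointwise_smul_iff_inv_smul_mem, hQ] at hy hz
  have := (hc _ hy _ hz).map (MulAut.conj g)
  rwa [← MulAut.smul_def, ← MulAut.smul_def, smul_inv_smul, smul_inv_smul] at this

theorem ab_even (e1 : e = 1) (p2 : p = 2) (P : Sylow p H) {y : H} (hy : y ∈ (P : Subgroup H)) (y1 : y ≠ 1) :
    (P : Subgroup H) = Cx⟦y⟧ := by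
  subst p2
  have yX := h.mem_X (h.card_syl _) hy y1
  obtain ⟨⟨t, ht⟩, t2⟩ := exists_prime_orderOf_dvd_card' (G := zpowers y) 2 (by
    rw [Nat.card_zpowers]
    exact (isPElt_of_mem P.isPGroup' hy).dvd_orderOf y1)
  rw [orderOf_mk] at t2
  have tX : t ∈ XX H q := ⟨H9.ne_one_of_orderOf_two t2, (orderOf_dvd_of_mem_zpowers ht).trans yX.2⟩
  have e2 : {z | IsConj t z} = XX H q := Set.eq_of_subset_of_ncard_le (fun z hz => xconj tX hz) (by
    have := h.card_X
    have := h.em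
    rw [ncard_isConj, h.cs_X tX]
    rw [e1] at this
    omega)
  have sq : ∀ a ∈ Cx⟦y⟧, a * a = 1 := fun a ha => by
    by_cases a1 : a = 1
    · simp [a1]
    obtain ⟨g, rfl⟩ := isConj_iff.1 (e2.ge (h.mem_X (h.card_C yX) ha a1))
    exact H73.conj_mul_self (H9.mul_self_of_orderOf_two t2) g
  refine h.ab_of_comm yX (fun a ha b hb => H73.commute_of_inverts (N := Cx⟦y⟧) (t := 1)
    (fun n hn => ?_) ha hb) P hy y1
  rw [one_mul, inv_one, mul_one, eq_inv_iff_mul_eq_one, sq n hn]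

theorem ab_odd (e1 : e = 2) (w2 : 2 ∣ w) (hm : q ≤ 2 * m + 1) (P : Sylow p H) {y : H} (hy : y ∈ (P : Subgroup H))
    (y1 : y ≠ 1) : (P : Subgroup H) = Cx⟦y⟧ := by
  by_contra hne
  have cP := h.card_syl P
  have yX := h.mem_X cP hy y1
  have qo : ¬ 2 ∣ q := fun d => by have := Nat.eq_one_of_dvd_coprimes h.qw d w2; omega
  have fpf : ∀ t x : H, orderOf t = 2 → x ∈ XX H q → ¬ Commute x t := fun t x ht hx c =>
    qo (ht ▸ h.card_C hx ▸ (Cx⟦x⟧).orderOf_dvd_natCard (mem_Cx_iff_commute.2 c))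
  have ninv : ∀ t x : H, orderOf t = 2 → x ∈ XX H q → t * x * t⁻¹ ≠ x⁻¹ := fun t x ht hx c =>
    hne (h.ab_of_comm hx (fun a ha b hb => H73.commute_of_inverts (H73.inverts_of_fpf
      (H9.mul_self_of_orderOf_two ht) (fun n hn => by rwa [← Cx_inv, ← c, conj_mem_Cx_conj])
      fun n hn c => by_contra fun n1 => fpf t n ht (h.mem_X (h.card_C hx) hn n1) c) ha hb) P hy y1)
  have ex : ∀ x ∈ XX H q, ∃ x', IsConj x x' ∧ Cx⟦x'⟧ = P := fun x hx => by
    obtain ⟨Q, hQ⟩ := h.exists_syl hx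
    obtain ⟨g, rfl⟩ := exists_smul_eq H Q P
    exact ⟨_, isConj_iff.2 ⟨g, rfl⟩, by rw [Cx_conj, ← hQ, Sylow.coe_subgroup_smul]⟩
  obtain ⟨x1, c1, d1⟩ := ex y yX
  obtain ⟨z, zX, zc⟩ : ∃ z ∈ XX H q, ¬ IsConj y z := by
    by_contra hc
    push Not at hc
    have := Set.ncard_le_ncard (s := XX H q) (t := {z | IsConj y z}) hc
    have h1 := h.card_X
    have h2 := h.em
    have h3 := h.mw0
    rw [ncard_isConj, h.cs_X yX] at this
    rw [e1] at h2
    omega
  obtain ⟨x2, c2, d2⟩ := ex z zX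
  haveI : Fact (Nat.Prime 2) := ⟨Nat.prime_two⟩
  obtain ⟨t0, ht0⟩ := exists_prime_orderOf_dvd_card' (G := H) 2 (h.card ▸ w2.mul_left _)
  have ct : q * m ≤ cs⟦t0⟧ := by
    rcases h.all t0 (H9.ne_one_of_orderOf_two ht0) with ⟨o, -⟩ | ⟨o, -⟩ | ⟨-, c | c⟩
    · exact absurd (ht0 ▸ o) qo
    · have := Nat.eq_one_of_dvd_coprimes h.mw (ht0 ▸ o) w2; omega
    · exact c.ge
    · omega
  set T := {t | IsConj t0 t}
  have To : ∀ t ∈ T, orderOf t = 2 := fun t ht => by
    obtain ⟨g, rfl⟩ := isConj_iff.1 ht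
    rw [H9.orderOf_conj, ht0]
  set Bad := {x ∈ XX H q | ∃ u ∈ (P : Subgroup H), u ≠ 1 ∧ u ∈ Cx⟦x⟧}
  have img : ∀ x ∈ XX H q, Cx⟦x⟧ = P → ((fun t => t * x * t⁻¹) '' T).ncard = cs⟦t0⟧ ∧
      (fun t => t * x * t⁻¹) '' T ⊆ XX H q \ Bad := fun x hx dx => by
    constructor
    · rw [← ncard_isConj]
      refine Set.InjOn.ncard_image fun s hs t ht e => ?_
      have ss := H9.mul_self_of_orderOf_two (To s hs)
      have tt := H9.mul_self_of_orderOf_two (To t ht)
      have m1 : t⁻¹ * s ∈ Cx⟦x⟧ := mem_Cx_iff_conj.2 (by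
        rw [show t⁻¹ * s * x * (t⁻¹ * s)⁻¹ = t⁻¹ * (s * x * s⁻¹) * t by group, show s * x * s⁻¹ = _ from e]
        group)
      by_contra ne
      refine ninv t _ (To t ht) (h.mem_X (h.card_C hx) m1 fun e => ne (inv_mul_eq_one.1 e).symm) ?_
      rw [mul_inv_cancel_left, mul_inv_rev, inv_inv, inv_eq_of_mul_eq_one_right ss,
        inv_eq_of_mul_eq_one_right tt]
    · rintro _ ⟨t, ht, rfl⟩
      refine ⟨xconj hx (isConj_iff.2 ⟨t, rfl⟩), fun ⟨_, u, uP, u1, uc⟩ => ?_⟩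
      have tt := H9.mul_self_of_orderOf_two (To t ht)
      have ti := inv_eq_of_mul_eq_one_right tt
      have m1 : t * u * t⁻¹ ∈ (P : Subgroup H) := by
        rw [← dx, ← conj_mem_Cx_conj (g := t)]
        simpa [ti, mul_assoc, tt, ← mul_assoc t t] using uc
      refine ninv t _ (To t ht) (h.mem_X cP (mul_mem (inv_mem uP) m1) fun e =>
        fpf t u (To t ht) (h.mem_X cP uP u1) (H73.commute_of_conj_eq (inv_mul_eq_one.1 e).symm).symm) ?_
      simp [ti, mul_assoc, tt]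
  obtain ⟨a1, b1⟩ := img x1 (xconj yX c1) d1
  obtain ⟨a2, b2⟩ := img x2 (xconj zX c2) d2
  have l1 := Set.ncard_le_ncard (Set.union_subset b1 b2)
  rw [Set.ncard_union_eq (Set.disjoint_left.2 (by
    rintro _ ⟨s, -, rfl⟩ ⟨t, -, e⟩
    exact zc ((c1.trans (isConj_iff.2 ⟨s, rfl⟩)).trans
      ((c2.trans (isConj_iff.2 ⟨t, e⟩)).symm)))), a1, a2] at l1
  have l2 := Set.ncard_sdiff_add_ncard_of_subset (s := Bad) (t := XX H q) fun _ hx => hx.1
  obtain ⟨v, vy, vP⟩ : ∃ v ∈ Cx⟦y⟧, v ∉ (P : Subgroup H) := by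
    by_contra hc
    push Not at hc
    exact hne (eq_of_le_of_card_ge hc (cP.trans (h.card_C yX).symm).le).symm
  have l3 := Set.ncard_le_ncard (s := insert v (((P : Subgroup H) : Set H) \ {1})) (t := Bad) (by
    rintro x (rfl | ⟨hx, x1⟩)
    · exact ⟨h.mem_X (h.card_C yX) vy fun e => vP (e ▸ one_mem _), y, hy, y1, mem_Cx_comm.1 vy⟩
    · exact ⟨h.mem_X cP hx x1, x, hx, x1, self_mem_Cx x⟩)
  rw [Set.ncard_insert_of_notMem fun e => vP e.1,
    Set.ncard_sdiff_singleton_add_one (one_mem (P : Subgroup H))] at l3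
  have l4 : ((P : Subgroup H) : Set H).ncard = q := cP
  have l5 := h.card_X
  nlinarith

variable (ab : ∀ P : Sylow p H, ∀ y ∈ (P : Subgroup H), y ≠ 1 → (P : Subgroup H) = Cx⟦y⟧)
include ab

theorem card_om : Nat.card (Sylow p H) = q + 1 := by
  have e1 : (XX H q).ncard = Nat.card (Sylow p H) * (q - 1) := by
    have e0 : Nat.card (Σ P : Sylow p H, {x : (P : Subgroup H) // x ≠ 1}) = Nat.card (XX H q) :=
      Nat.card_congr (Equiv.ofBijective (fun x => ⟨x.2.1.1, h.mem_X (h.card_syl _) x.2.1.2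
        fun e => x.2.2 (Subtype.ext e)⟩) ⟨?_, ?_⟩)
    · haveI := Fintype.ofFinite (Sylow p H)
      rw [← Nat.card_coe_set_eq, ← e0, Nat.card_sigma, Finset.sum_congr rfl
        fun (P : Sylow p H) _ => (card_ne (1 : (P : Subgroup H))).trans
          (congrArg (· - 1) (h.card_syl P)),
        Finset.sum_const, Finset.card_univ, smul_eq_mul, Nat.card_eq_fintype_card]
    · rintro ⟨P, ⟨x, hx⟩, x1⟩ ⟨Q, ⟨y, hy⟩, y1⟩ e
      obtain rfl : x = y := congrArg Subtype.val e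
      obtain rfl : P = Q := Sylow.ext ((ab P x hx fun e => x1 (Subtype.ext e)).trans
        (ab Q x hy fun e => y1 (Subtype.ext e)).symm)
      rfl
    · rintro ⟨x, hx⟩
      obtain ⟨P, hP⟩ := h.exists_syl hx
      exact ⟨⟨P, ⟨x, hP ▸ self_mem_Cx x⟩, fun e => hx.1 (congrArg Subtype.val e)⟩, rfl⟩
  have e2 := h.card_X
  obtain ⟨r, rfl⟩ : ∃ r, q = r + 1 := ⟨q - 1, by have := h.q4; omega⟩
  rw [e1, Nat.add_sub_cancel] at e2
  exact Nat.eq_of_mul_eq_mul_right (show 0 < r by have := h.q4; omega) (by nlinarith)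

theorem fix {P Q : Sylow p H} (hne : Q ≠ P) {u : H} (hu : u ∈ (P : Subgroup H)) (e : u • Q = Q) :
    u = 1 := by_contra fun u1 => hne (Sylow.ext ((ab Q u ((P.isPGroup'.inf_normalizer_sylow Q).le
      ⟨hu, Sylow.smul_eq_iff_mem_normalizer.1 e⟩).2 u1).trans (ab P u hu u1).symm))

omit h ab in
theorem self {P : Sylow p H} {u : H} (hu : u ∈ (P : Subgroup H)) : u • P = P :=
  Sylow.smul_eq_iff_mem_normalizer.2 (le_normalizer hu)

theorem reg (P y z : Sylow p H) (hy : y ≠ P) (hz : z ≠ P) :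
    ∃! u : (P : Subgroup H), (u : H) • y = z := by
  have : Function.Bijective fun u : (P : Subgroup H) =>
      (⟨(u : H) • y, fun e => hy (smul_left_cancel _ (e.trans (self u.2).symm))⟩ : {Q // Q ≠ P}) := by
    refine (Nat.bijective_iff_injective_and_card _).2 ⟨fun u v e => ?_, ?_⟩
    · have e1 : ((v : H)⁻¹ * u) • y = y := by
        rw [mul_smul, inv_smul_eq_iff]; exact congrArg Subtype.val e
      exact Subtype.ext (inv_mul_eq_one.1 (h.fix ab hy (mul_mem (inv_mem v.2) u.2) e1)).symm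
    · rw [card_ne, h.card_om ab, h.card_syl, Nat.add_sub_cancel]
  simpa only [Subtype.mk.injEq] using this.existsUnique ⟨z, hz⟩

theorem three (g : H) (a b c : Sylow p H) (ab' : a ≠ b) (bc : b ≠ c) (ac : a ≠ c) (ga : g • a = a)
    (gb : g • b = b) (gc : g • c = c) : g = 1 := by
  obtain ⟨⟨u, ua⟩, (hu : u • b = c), uq⟩ := h.reg ab a b c ab'.symm ac.symm
  have := uq ⟨g * u * g⁻¹, (mem_normalizer_iff.1 (Sylow.smul_eq_iff_mem_normalizer.1 ga) u).1 ua⟩
    (show (g * u * g⁻¹) • b = c by rw [mul_smul, mul_smul, inv_smul_eq_iff.2 gb.symm, hu, gc])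
  refine h.fix ab ab'.symm ((ab a u ua fun e => bc ?_).ge
    (mem_Cx_iff_conj.2 (congrArg Subtype.val this))) gb
  rwa [e, one_smul] at hu

theorem stab (t : Fin 3 ↪ Sylow p H) {g : H} (e : g • t = t) : g = 1 :=
  h.three ab g (t 0) (t 1) (t 2) (t.injective.ne (by decide)) (t.injective.ne (by decide))
    (t.injective.ne (by decide)) (DFunLike.congr_fun e 0) (DFunLike.congr_fun e 1)
    (DFunLike.congr_fun e 2)

theorem card_emb : Nat.card (Fin 3 ↪ Sylow p H) + q = q ^ 3 := by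
  classical
  haveI := Fintype.ofFinite (Sylow p H)
  rw [Nat.card_eq_fintype_card, Fintype.card_embedding_eq, Fintype.card_fin,
    ← Nat.card_eq_fintype_card, h.card_om ab]
  obtain ⟨r, rfl⟩ : ∃ r, q = r + 1 := ⟨q - 1, by have := h.q4; omega⟩
  simp [Nat.descFactorial]
  ring

theorem exists_emb : Nonempty (Fin 3 ↪ Sylow p H) := by
  refine (Nat.card_pos_iff.1 ?_).1
  have := h.card_emb ab
  have := h.q4
  nlinarith [Nat.pow_lt_pow_right (a := q) (by omega) (show 1 < 3 by omega)]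

theorem faithful : FaithfulSMul H (Sylow p H) := ⟨fun {a b} e => by
  obtain ⟨t⟩ := h.exists_emb ab
  exact (inv_mul_eq_one.1 (h.stab ab t (g := b⁻¹ * a) (Function.Embedding.ext fun i => by
    rw [Function.Embedding.smul_apply, mul_smul, e, inv_smul_smul]))).symm⟩

theorem zass (q5 : 5 ≤ q) : Cfsg.IsZassenhausGroup H (Sylow p H) := by
  obtain ⟨t⟩ := h.exists_emb ab
  have t01 : t 0 ≠ t 1 := t.injective.ne (by decide)
  have cO := h.card_om ab
  have em := h.em
  have e2 := h.e2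
  refine ⟨h.faithful ab, is_two_pretransitive_iff.2 fun {a b c d} h1 h2 => ?_, h.three ab, ?_,
    fun N _ hN => ?_⟩
  · obtain ⟨g, rfl⟩ := exists_smul_eq H a c
    obtain ⟨u, hu, -⟩ := h.reg ab (g • a) (g • b) d (fun e => h1 (smul_left_cancel _ e).symm) h2.symm
    exact ⟨u * g, by rw [mul_smul, self u.2], by rw [mul_smul, hu]⟩
  · by_contra hc
    push Not at hc
    have := Nat.card_le_card_of_injective (fun g : H => (g • t 0, g • t 1)) fun a b e => by
      rw [Prod.mk.injEq] at e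
      by_contra ne
      exact hc (b⁻¹ * a) (fun e => ne (inv_mul_eq_one.1 e).symm) _ _ t01
        (by rw [mul_smul, e.1, inv_smul_smul]) (by rw [mul_smul, e.2, inv_smul_smul])
    rw [Nat.card_prod, cO, h.card, mul_assoc] at this
    have h1 : e * (m * w) ≤ 2 * (m * w) := Nat.mul_le_mul_right _ e2
    nlinarith [Nat.mul_le_mul_left q h1]
  · by_contra hc
    push Not at hc
    obtain ⟨y, hy⟩ := exists_smul_eq N (t 0) (t 1)
    have y1 : (y : H) ≠ 1 := fun e => t01 (by rw [← hy, smul_def, e, one_smul])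
    have l1 := Nat.card_le_card_of_injective (fun g : N => g • t 0) fun a b e =>
      (inv_mul_eq_one.1 (mem_bot.1 ((hc (t 0)).le (show b⁻¹ * a ∈ stabilizer N (t 0) by
        rw [mem_stabilizer_iff, mul_smul, inv_smul_eq_iff]; exact e)))).symm
    have l2 := Set.ncard_le_ncard (s := {z | IsConj (y : H) z}) (t := (N : Set H)) fun z hz => by
      obtain ⟨g, rfl⟩ := isConj_iff.1 hz
      exact Normal.conj_mem inferInstance _ y.2 g
    rw [ncard_isConj] at l2
    have l3 : cs⟦(y : H)⟧ ≤ q + 1 := l2.trans (cO ▸ l1)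
    have h1 : e * (m * w) ≤ 2 * (m * w) := Nat.mul_le_mul_right _ e2
    have := h.m2
    have := h.w2
    rcases h.all y y1 with ⟨-, c⟩ | ⟨-, c⟩ | ⟨-, c | c⟩ <;> rw [c] at l3 <;> nlinarith

theorem psl_odd (e1 : e = 2) (q5 : 5 ≤ q) : ∃ (K : Type) (_ : Field K) (_ : Fintype K),
    Fintype.card K = q ∧ Nonempty (H ≃* PSL(2, K)) := by
  obtain ⟨P⟩ : Nonempty (Sylow p H) := inferInstance
  have em := h.em
  have hc := h.card
  rw [e1] at em
  rcases Cfsg.Agent.S0731.result (h.zass ab q5) P P (fun u hu => self hu)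
    (by rw [Sylow.stabilizer_eq_normalizer]; exact normal_in_normalizer)
    ⟨⟨fun a b => Subtype.ext (by
      by_cases b1 : (b : H) = 1
      · simp [b1]
      · exact mem_Cx.1 ((ab P b b.2 b1).le a.2))⟩⟩ (h.reg ab P) with ⟨h3, -⟩ | ⟨K, _, _, k2, ⟨i⟩⟩
  · obtain ⟨t⟩ := h.exists_emb ab
    have := Nat.card_le_card_of_surjective (fun g : H => g • t) (h3.exists_smul_eq t)
    have := h.card_emb ab
    have := h.mw0
    nlinarith
  · refine ⟨K, inferInstance, inferInstance, ?_, ⟨i⟩⟩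
    have h4 := H10.card_PSL_two (F := K)
    have ho := FiniteField.odd_card_of_char_ne_two k2
    rw [← Nat.card_congr i.toEquiv, hc, Nat.card_eq_fintype_card (α := K),
      Nat.gcd_eq_left (by omega)] at h4
    obtain ⟨r, hr⟩ : ∃ r, Fintype.card K = r + 1 := ⟨Fintype.card K - 1, by omega⟩
    obtain ⟨s, rfl⟩ : ∃ r, q = r + 1 := ⟨q - 1, by omega⟩
    rw [hr, Nat.add_sub_cancel] at h4
    have h5 : (r + 1) * r * (r + 2) = (s + 1) * s * (s + 2) := by nlinarith
    rw [hr]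
    rcases lt_trichotomy r s with l | l | l
    · have : (r + 1) * r * (r + 2) < (s + 1) * s * (s + 2) := by gcongr
      omega
    · rw [l]
    · have : (s + 1) * s * (s + 2) < (r + 1) * r * (r + 2) := by gcongr
      omega

theorem psl_even (e1 : e = 1) (p2 : p = 2) : ∃ (K : Type) (_ : Field K) (_ : Fintype K),
    Fintype.card K = q ∧ Nonempty (H ≃* PSL(2, K)) := by
  classical
  subst p2
  haveI := Fintype.ofFinite (Sylow 2 H)
  haveI := h.faithful ab
  have f1 : 1 ≤ f := Nat.pos_of_ne_zero fun e => by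
    have := h.q4; rw [h.qp, e, pow_zero] at this; omega
  obtain ⟨K, _, _, cK, ⟨i⟩⟩ := Cfsg.Agent.S0727.result f1 (α := Sylow 2 H)
    (by rw [← Nat.card_eq_fintype_card, h.card_om ab, h.qp]) (toPermHom H (Sylow 2 H)).range
    ⟨fun s t => by
      obtain ⟨g, hg⟩ := ((Nat.bijective_iff_injective_and_card fun g : H => g • s).2
        ⟨fun a b e => (inv_mul_eq_one.1 (h.stab ab s (g := b⁻¹ * a) (by
          rw [mul_smul, inv_smul_eq_iff]; exact e))).symm, by
          have := h.card_emb ab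
          have := h.em
          rw [e1] at this
          rw [h.card]
          nlinarith⟩).2 t
      exact ⟨⟨_, g, rfl⟩, hg⟩⟩
    fun t => eq_bot_iff.2 fun ⟨_, g, rfl⟩ hg => by
      rw [mem_bot, Subtype.ext_iff]
      exact (congrArg _ (h.stab ab t hg)).trans (map_one _)
  refine ⟨K, inferInstance, inferInstance, cK.trans h.qp.symm, ⟨((MonoidHom.ofInjective toPerm_injective).trans i).trans
    (MulEquiv.ofBijective _ ⟨Matrix.ProjectiveSpecialLinearGroup.toPGL_injective,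
      MonoidHom.range_eq_top.1 (index_eq_one.1 ?_)⟩).symm⟩⟩
  rw [H10.index_range_toPGL, Fintype.card_fin, Nat.card_eq_fintype_card, cK]
  refine Nat.coprime_two_left.2 (Nat.Even.sub_odd Nat.one_le_two_pow ?_ odd_one)
  exact (Nat.even_pow' (by omega)).2 even_two

end S5

end H26.CL
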