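import Mathlib
import Cfsg.Agent.Base
import Cfsg.Agent.Lib.ClsL2.B
import Cfsg.Agent.S2507
import Cfsg.Agent.S2508

/-!
# Groups with the class sizes of `PSL₂(q)` are `PSL₂(q) × A`
-/

set_option autoImplicit false
set_option linter.unusedSectionVars false

namespace H26.CL

open Subgroup H80 H35 H64.SL2
open scoped MatrixGroups commutatorElement

theorem comm_of_two {K : Type*} [Group K] {A : Subgroup K} (hc : ∀ a ∈ A, ∀ b ∈ A, Commute a b)
    (hi : ∀ u v, u ∉ A → v ∉ A → u * v ∈ A) {z : K} (hz : z ∈ commutator K) :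
    ∃ s a : K, z = ⁅s, a⁆ := by
  by_cases hA : ∀ s, s ∈ A
  · refine ⟨1, 1, ?_⟩
    rw [commutatorElement_self, ← mem_bot]
    exact (commutator_le.2 fun a _ b _ => mem_bot.2 (hc a (hA a) b (hA b)).commutator_eq) hz
  push Not at hA
  obtain ⟨s, hs⟩ := hA
  have cj : ∀ a ∈ A, s * a * s⁻¹ ∈ A := fun a ha =>
    hi _ _ (fun e => hs ((mul_mem_cancel_right ha).1 e)) fun e => hs (inv_mem_iff.1 e)
  let D : Subgroup K :=
    { carrier := {d | ∃ a ∈ A, d = s * a * s⁻¹ * a⁻¹}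
      one_mem' := ⟨1, one_mem _, by group⟩
      mul_mem' := by
        rintro _ _ ⟨a, ha, rfl⟩ ⟨b, hb, rfl⟩
        refine ⟨a * b, mul_mem ha hb, ?_⟩
        rw [mul_assoc _ a⁻¹, (hc _ (inv_mem ha) _ (mul_mem (cj b hb) (inv_mem hb))).eq]
        group
      inv_mem' := by
        rintro _ ⟨a, ha, rfl⟩
        refine ⟨a⁻¹, inv_mem ha, ?_⟩
        rw [(hc _ (cj _ (inv_mem ha)) _ (inv_mem (inv_mem ha))).eq]
        group }
  have dec : ∀ g, ∃ a ∈ A, g = a ∨ g = a * s := fun g => by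
    by_cases hg : g ∈ A
    · exact ⟨g, hg, Or.inl rfl⟩
    · exact ⟨_, hi g s⁻¹ hg fun e => hs (inv_mem_iff.1 e), Or.inr (by group)⟩
  have k1 : ∀ a ∈ A, ∀ b ∈ A, ⁅a * s, b⁆ ∈ D := fun a ha b hb => ⟨b, hb, by
    rw [show ⁅a * s, b⁆ = a * (s * b * s⁻¹) * a⁻¹ * b⁻¹ by group, (hc _ ha _ (cj b hb)).eq]
    group⟩
  obtain ⟨a, -, e⟩ : z ∈ D := commutator_le.2 (fun g _ g' _ => by
    obtain ⟨a, ha, rfl | rfl⟩ := dec g <;> obtain ⟨b, hb, rfl | rfl⟩ := dec g'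
    · rw [(hc _ ha _ hb).commutator_eq]; exact one_mem _
    · rw [← commutatorElement_inv]; exact inv_mem (k1 _ hb _ ha)
    · exact k1 _ ha _ hb
    · refine ⟨b * a⁻¹, mul_mem hb (inv_mem ha), ?_⟩
      rw [show ⁅a * s, b * s⁆ = a * (s * (b * a⁻¹) * s⁻¹) * b⁻¹ by group,
        (hc _ ha _ (cj _ (mul_mem hb (inv_mem ha)))).eq]
      group) hz
  exact ⟨s, a, e⟩

variable {G : Type*} [Group G] [Finite G]

theorem split {L : Type*} [Group L] [Finite L] [Nontrivial L] {φ : G →* L}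
    (hφ : Function.Surjective φ) (hk : center G ≤ φ.ker)
    (h1 : ∀ x y, Commute (φ x) (φ y) → Commute x y)
    (h2 : ∀ l : L, l ≠ 1 → ∃ A : Subgroup L, (∀ a ∈ A, ∀ b ∈ A, Commute a b) ∧
      ∀ u ∈ Cx⟦l⟧, ∀ v ∈ Cx⟦l⟧, u ∉ A → v ∉ A → u * v ∈ A) :
    commutator G ⊓ center G = ⊥ := by
  by_contra hne
  obtain ⟨r, hr, d⟩ := Nat.exists_prime_and_dvd fun e => hne (card_eq_one.1 e)
  haveI := Fact.mk hr
  obtain ⟨⟨z, z0⟩, zo⟩ := exists_prime_orderOf_dvd_card' r d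
  rw [orderOf_mk] at zo
  obtain ⟨z1, z2⟩ := mem_inf.1 z0
  obtain ⟨l, l1, hl⟩ : ∃ l : L, l ≠ 1 ∧ ¬ r ∣ cs⟦l⟧ := by
    obtain ⟨R⟩ : Nonempty (Sylow r L) := inferInstance
    by_cases hR : (R : Subgroup L) = ⊥
    · obtain ⟨l, l1⟩ := exists_ne (1 : L)
      exact ⟨l, l1, not_dvd_index_of_sylow_le R (hR ▸ bot_le)⟩
    · haveI := (nontrivial_iff_ne_bot _).2 hR
      haveI := R.isPGroup'.center_nontrivial
      obtain ⟨⟨⟨l, hl⟩, c⟩, l1⟩ := exists_ne (1 : center (R : Subgroup L))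
      exact ⟨l, fun e => l1 (Subtype.ext (Subtype.ext e)), not_dvd_index_of_sylow_le R fun y hy =>
        mem_Cx.2 (congrArg Subtype.val (mem_center_iff.1 c ⟨y, hy⟩))⟩
  obtain ⟨A, hA, hi⟩ := h2 l l1
  set K := (Cx⟦l⟧).comap φ
  have key : ∀ (k : ℕ) (g₀ : G), g₀⁻¹ * z ^ k * g₀ ∈ K → g₀⁻¹ * z ^ k * g₀ = z ^ k := fun k g _ => by
    rw [mem_center_iff.1 (pow_mem z2 k) g⁻¹, inv_mul_cancel_right]
  have e1 := MonoidHom.transfer_eq_pow (Abelianization.of (G := K)) z key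
  rw [Abelianization.commutator_subset_ker _ z1, eq_comm, ← MonoidHom.mem_ker,
    Abelianization.ker_of] at e1
  obtain ⟨s, a, e⟩ := comm_of_two (A := A.comap (φ.comp K.subtype))
    (fun a ha b hb => Subtype.ext (h1 _ _ (hA _ ha _ hb)).eq)
    (fun u v hu hv => by rw [mem_comap, map_mul]; exact hi _ u.2 _ v.2 hu hv) e1
  have e2 : z ^ K.index = ⁅(s : G), (a : G)⁆ := congrArg Subtype.val e
  have e3 := hk (pow_mem z2 K.index)
  rw [e2, MonoidHom.mem_ker, map_commutatorElement, commutatorElement_eq_one_iff_commute] at e3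
  rw [(h1 _ _ e3).commutator_eq, ← orderOf_dvd_iff_pow_eq_one, zo,
    index_comap_of_surjective _ hφ] at e2
  exact hl e2

theorem S3.lift {q m w : ℕ} (h : S3 G q m w) (hc : 2 ∣ w → ∀ u v : G ⧸ center G, cs⟦u⟧ = q * m →
    cs⟦v⟧ = q * m → IsConj u v) (x y : G)
    (e : Commute (x : G ⧸ center G) (y : G ⧸ center G)) : Commute x y := by
  by_cases hx : x ∈ center G
  · exact (mem_center_iff.1 hx y).symm
  have : cs⟦x⟧ = cs⟦(x : G ⧸ center G)⟧ := by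
    rcases h.quot x hx with ⟨-, a, b⟩ | ⟨-, a, b⟩ | ⟨-, ⟨a, b⟩ | ⟨w2, a, b | b⟩⟩
    iterate 3 exact a.trans b.symm
    swap
    · exact a.trans b.symm
    obtain ⟨z, ez⟩ := h.exd
    have n := S3.nc h.q2 ez
    have q0 := h.q2
    have m0 := h.m2
    have hz : cs⟦(z : G ⧸ center G)⟧ = q * m := by
      rcases h.quot z n with ⟨-, a, b⟩ | ⟨-, a, b⟩ | ⟨-, ⟨a, b⟩ | ⟨w2, a, -⟩⟩
      · exact b.trans (a.symm.trans ez)
      · exact b.trans (a.symm.trans ez)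
      · exact b
      · nlinarith
    obtain ⟨g, hg⟩ := isConj_iff.1 (hc w2 _ _ hz b)
    obtain ⟨g, rfl⟩ := QuotientGroup.mk_surjective g
    have e1 := Cx_mul_of_mem_center (x := g * z * g⁻¹) (QuotientGroup.eq.1 hg)
    rw [mul_inv_cancel_left] at e1
    rw [e1, cs_conj, ez] at a
    nlinarith
  have e1 := eq_of_le_of_index (Cx_le_comap (QuotientGroup.mk' (center G)) x)
    (this.trans (index_comap_of_surjective _ (QuotientGroup.mk'_surjective _)).symm)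
  exact mem_Cx_iff_commute.1 (e1.ge (mem_Cx_iff_commute.2 e))

variable {F : Type*} [Field F] [Fintype F]

theorem psl_half (l : PSL(2, F)) (l1 : l ≠ 1) : ∃ A : Subgroup PSL(2, F),
    (∀ a ∈ A, ∀ b ∈ A, Commute a b) ∧ ∀ u ∈ Cx⟦l⟧, ∀ v ∈ Cx⟦l⟧, u ∉ A → v ∉ A → u * v ∈ A := by
  obtain ⟨g, rfl⟩ := proj_surjective l
  refine ⟨(Cx⟦g⟧).map proj, ?_, fun u hu v hv nu nv => ?_⟩
  · rintro _ ⟨a, ha, rfl⟩ _ ⟨b, hb, rfl⟩
    exact Commute.map (commute_of_mem_centralizer (fun e => l1 (proj_eq_one_iff.2 e)) ha hb) proj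
  obtain ⟨a, rfl⟩ := proj_surjective u
  obtain ⟨b, rfl⟩ := proj_surjective v
  rw [mem_Cx, ← map_mul, ← map_mul, proj_eq_iff] at hu hv
  refine ⟨a * b, mem_Cx.2 ?_, map_mul _ _ _⟩
  rw [mul_assoc, hv.resolve_left fun e => nv ⟨b, mem_Cx.2 e, rfl⟩, mul_neg, ← mul_assoc,
    hu.resolve_left fun e => nu ⟨a, mem_Cx.2 e, rfl⟩, neg_mul, neg_neg, mul_assoc]

theorem S3.final {q m w : ℕ} (h : S3 G q m w) (h4 : 4 ≤ Fintype.card F)
    (i : G ⧸ center G ≃* PSL(2, F)) (hc : 2 ∣ w → ∀ u v : PSL(2, F), cs⟦u⟧ = q * m →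
    cs⟦v⟧ = q * m → IsConj u v) : ∃ N A : Subgroup G, N.Normal ∧ A ≤ center G ∧ N ⊓ A = ⊥ ∧
      N ⊔ A = ⊤ ∧ Nonempty (N ≃* PSL(2, F)) := by
  haveI := H10.isSimpleGroup_PSL_fin (F := F) 2 le_rfl fun _ => by rwa [Nat.card_eq_fintype_card]
  set φ := i.toMonoidHom.comp (QuotientGroup.mk' (center G))
  have hφ : Function.Surjective φ := i.surjective.comp (QuotientGroup.mk'_surjective _)
  have hk : φ.ker = center G := by
    ext x
    simp [φ]
  have e1 := split hφ hk.ge (fun x y e => h.lift (fun w2 u v hu hv => by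
    simpa using i.symm.toMonoidHom.map_isConj (hc w2 (i u) (i v) (by rw [cs_equiv, hu])
      (by rw [cs_equiv, hv]))) x y (by simpa [φ] using e.map i.symm)) psl_half
  have e2 : (commutator G).map φ = ⊤ := by
    rw [map_commutator_eq, MonoidHom.range_eq_top.2 hφ]
    refine (Normal.eq_bot_or_eq_top inferInstance).resolve_left fun e => ?_
    obtain ⟨x, hx⟩ := h.exa
    have c := h.s4.all
    haveI := i.toEquiv.nontrivial
    obtain ⟨u, u1⟩ := exists_ne (1 : G ⧸ center G)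
    have : cs⟦u⟧ = 1 := by
      rw [← cs_equiv i, cs_eq_one_iff, mem_center_iff]
      exact fun g => commutatorElement_eq_one_iff_mul_comm.1
        (mem_bot.1 (e ▸ commutator_mem_commutator (mem_top _) (mem_top _)))
    have := h.q2
    have := h.m2
    have := h.w2
    rcases c u u1 with ⟨-, c⟩ | ⟨-, c⟩ | ⟨-, c | c⟩ <;> nlinarith
  refine ⟨commutator G, center G, inferInstance, le_rfl, e1, ?_,
    ⟨MulEquiv.ofBijective (φ.domRestrict _) ⟨?_, ?_⟩⟩⟩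
  · rw [← hk, ← comap_map_eq, e2, comap_top]
  · rw [← MonoidHom.ker_eq_bot_iff, MonoidHom.ker_domRestrict, hk, subgroupOf_eq_bot, disjoint_comm,
      disjoint_iff, e1]
  · rw [← MonoidHom.range_eq_top, MonoidHom.domRestrict_range, e2]

theorem cop {a b : ℕ} (u v : ℤ) (h : u * a + v * b = 1) : a.Coprime b :=
  Nat.isCoprime_iff_coprime.1 ⟨u, v, h⟩

theorem mkS3 {q m w : ℕ} (qm : q.Coprime m) (qw : q.Coprime w) (mw : m.Coprime w) (q2 : 2 < q)
    (m2 : 2 < m) (w2 : 2 < w) {S : Set ℕ} (h : Set.range (fun g : G => cs⟦g⟧) = S)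
    (h1 : ∀ n ∈ S, n = 1 ∨ n = m * w ∨ n = q * w ∨ n = q * m ∨ (2 ∣ w ∧ n = 2 * (q * m)))
    (ha : m * w ∈ S) (hb : q * w ∈ S) (hd : q * m ∈ S) : S3 G q m w := by
  subst h
  exact ⟨qm, qw, mw, q2, m2, w2, fun x => h1 _ ⟨x, rfl⟩, ha, hb, hd⟩

theorem odd_fin {q m w : ℕ} (h : S3 G q m w) (hq : Fintype.card F = q) (w2 : 2 ∣ w)
    (em : 2 * (m * w) + 1 = q ^ 2) (q5 : 5 ≤ q) (hm : q ≤ 2 * m + 1)
    (h0 : ∀ g : SL(2, F), cs⟦proj g⟧ = q * m → tr g = 0) (h2 : (2 : F) ≠ 0) :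
    Nonempty (G ⧸ center G ≃* PSL(2, F)) ∧ ∃ N A : Subgroup G, N.Normal ∧ A ≤ center G ∧
      N ⊓ A = ⊥ ∧ N ⊔ A = ⊤ ∧ Nonempty (N ≃* PSL(2, F)) := by
  obtain ⟨p, -, f, hp, hf⟩ := FiniteField.card' F
  haveI := Fact.mk hp
  have s : S5 (G ⧸ center G) p f q m w 2 :=
    ⟨h.s4, hq.symm.trans hf, h.qm, h.qw, h.mw, by omega, em, le_rfl, h.m2, h.w2⟩
  obtain ⟨K, _, _, cK, ⟨i⟩⟩ := s.psl_odd (fun P y => s.ab_odd rfl w2 hm P) rfl q5
  have i' := i.trans (H10.pslCongr (FiniteField.ringEquivOfCardEq (cK.trans hq.symm)))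
  refine ⟨⟨i'⟩, h.final (by omega) i' fun _ u v hu hv => ?_⟩
  obtain ⟨a, rfl⟩ := proj_surjective u
  obtain ⟨b, rfl⟩ := proj_surjective v
  obtain ⟨c, rfl⟩ := H29.exists_conj_matJ h2 (g := a) (by rw [← tr_eq_trace, h0 a hu])
  obtain ⟨d, rfl⟩ := H29.exists_conj_matJ h2 (g := b) (by rw [← tr_eq_trace, h0 b hv])
  exact proj.map_isConj ((isConj_iff.2 ⟨c, rfl⟩).symm.trans (isConj_iff.2 ⟨d, rfl⟩))

theorem main_odd (hodd : ¬ 2 ∣ Fintype.card F) (h7 : 7 ≤ Fintype.card F)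
    (h : Set.range (fun g : G => cs⟦g⟧) = Set.range (fun g : PSL(2, F) => cs⟦g⟧)) :
    Nonempty (G ⧸ center G ≃* PSL(2, F)) ∧ ∃ N A : Subgroup G, N.Normal ∧ A ≤ center G ∧
      N ⊓ A = ⊥ ∧ N ⊔ A = ⊤ ∧ Nonempty (N ≃* PSL(2, F)) := by
  have h2 : (2 : F) ≠ 0 := fun e => hodd (by
    haveI : CharP F 2 := CharTwo.of_one_ne_zero_of_two_eq_zero one_ne_zero e
    exact char_dvd_card 2)
  have cl := fun g : SL(2, F) => Cfsg.Agent.S2508.classify h2 g
  simp only [Nat.card_eq_fintype_card] at cl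
  obtain ⟨r1, r3⟩ := Cfsg.Agent.S2508.result hodd h7
  rcases (by omega : Fintype.card F % 4 = 1 ∨ Fintype.card F % 4 = 3) with e | e
  · have r := h.trans (r1 e)
    obtain ⟨k, hk⟩ : ∃ k, Fintype.card F = 4 * k + 1 := ⟨Fintype.card F / 4, by omega⟩
    have a1 : ((4 * k + 1) ^ 2 - 1) / 2 = (2 * k + 1) * (4 * k) := by
      rw [show (4 * k + 1) ^ 2 = 2 * ((2 * k + 1) * (4 * k)) + 1 by ring]; omega
    have a2 : (4 * k + 1) * (4 * k + 1 + 1) = 2 * ((4 * k + 1) * (2 * k + 1)) := by ring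
    rw [hk, a1, a2, Nat.add_sub_cancel, Nat.mul_div_cancel_left _ two_pos] at r cl
    refine odd_fin (mkS3 (m := 2 * k + 1) (w := 4 * k) (cop (-1) 2 (by push_cast; ring))
      (cop 1 (-1) (by push_cast; ring)) (cop (2 * k + 1) (-(k + 1)) (by push_cast; ring))
      (by omega) (by omega) (by omega) r (fun n hn => ?_) (by simp) (by simp) (by simp)) hk
      (by omega) (by ring) (by omega) (by omega) (fun g hg => ?_) h2
    · have : 2 ∣ 4 * k := by omega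
      simp only [Set.mem_insert_iff, Set.mem_singleton_iff] at hn
      tauto
    · have : 2 ≤ k := by omega
      rcases cl g with c | c | c | c | c
      · nlinarith [c.2]
      · nlinarith [c.2.2]
      · exact c.1
      · nlinarith [c.2.2.2]
      · nlinarith [c.2.2]
  · have r := h.trans (r3 e)
    obtain ⟨k, hk⟩ : ∃ k, Fintype.card F = 4 * k + 3 := ⟨Fintype.card F / 4, by omega⟩
    have a1 : ((4 * k + 3) ^ 2 - 1) / 2 = (2 * k + 1) * (4 * k + 3 + 1) := by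
      rw [show (4 * k + 3) ^ 2 = 2 * ((2 * k + 1) * (4 * k + 3 + 1)) + 1 by ring]; omega
    have a2 : (4 * k + 3) * (4 * k + 3 - 1) = 2 * ((4 * k + 3) * (2 * k + 1)) := by
      rw [show 4 * k + 3 - 1 = 4 * k + 2 by omega]; ring
    rw [hk, a1, a2, Nat.mul_div_cancel_left _ two_pos] at r cl
    refine odd_fin (mkS3 (m := 2 * k + 1) (w := 4 * k + 3 + 1) (cop 1 (-2) (by push_cast; ring))
      (cop (-1) 1 (by push_cast; ring)) (cop (2 * k + 1) (-k) (by push_cast; ring))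
      (by omega) (by omega) (by omega) r (fun n hn => ?_) (by simp) (by simp) (by simp)) hk
      (by omega) (by ring) (by omega) (by omega) (fun g hg => ?_) h2
    · have : 2 ∣ 4 * k + 3 + 1 := by omega
      simp only [Set.mem_insert_iff, Set.mem_singleton_iff] at hn
      tauto
    · have : 1 ≤ k := by omega
      rcases cl g with c | c | c | c | c
      · nlinarith [c.2]
      · nlinarith [c.2.2]
      · exact c.1
      · nlinarith [c.2.2.2]
      · nlinarith [c.2.2]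

theorem main_even (h2 : 2 ∣ Fintype.card F) (h3 : 2 < Fintype.card F)
    (h : Set.range (fun g : G => cs⟦g⟧) = Set.range (fun g : PSL(2, F) => cs⟦g⟧)) :
    ∃ N A : Subgroup G, N.Normal ∧ A ≤ center G ∧
      N ⊓ A = ⊥ ∧ N ⊔ A = ⊤ ∧ Nonempty (N ≃* PSL(2, F)) := by
  have r := h.trans (Cfsg.Agent.S2507.result h2 (by omega))
  obtain ⟨k, hk⟩ : ∃ k, Fintype.card F = 2 * k + 1 + 1 := ⟨Fintype.card F / 2 - 1, by omega⟩
  have a1 : (2 * k + 1 + 1) ^ 2 = (2 * k + 1 + 1 + 1) * (2 * k + 1) + 1 := by ring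
  rw [hk, a1, Nat.add_sub_cancel, Nat.add_sub_cancel] at r
  have s3 := mkS3 (q := 2 * k + 1 + 1) (m := 2 * k + 1 + 1 + 1) (w := 2 * k + 1)
    (cop (-1) 1 (by push_cast; ring)) (cop 1 (-1) (by push_cast; ring))
    (cop (-k) (k + 1) (by push_cast; ring)) (by omega) (by omega) (by omega) r (fun n hn => by
      simp only [Set.mem_insert_iff, Set.mem_singleton_iff] at hn
      tauto) (by simp) (by simp) (by simp)
  obtain ⟨p, -, f, hp, hf⟩ := FiniteField.card' F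
  haveI := Fact.mk hp
  have p2 : p = 2 := ((Nat.prime_dvd_prime_iff_eq Nat.prime_two hp).1
    (Nat.prime_two.dvd_of_dvd_pow (hf ▸ h2))).symm
  have s : S5 (G ⧸ center G) p f _ _ _ 1 := ⟨s3.s4, hk.symm.trans hf, s3.qm, s3.qw, s3.mw,
    by omega, by rw [one_mul, a1], one_le_two, s3.m2, s3.w2⟩
  obtain ⟨K, _, _, cK, ⟨i⟩⟩ := s.psl_even (fun P y => s.ab_even rfl p2 P) rfl p2
  exact s3.final (by omega) (i.trans (H10.pslCongr (FiniteField.ringEquivOfCardEq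
    (cK.trans hk.symm)))) fun e => by omega

end H26.CL
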